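import Cfsg.Agent.H398.RC.FieldSU

/-!
# S3510, family E, box E6b: `LStmt` from `DecStmt` and `SmallStmt` (helper398)
-/

set_option autoImplicit false
set_option linter.unusedSectionVars false

namespace Cfsg.Agent.H398.RC

open Matrix Module Cfsg Cfsg.Agent.LieClassical.HermBasic Cfsg.Agent.LieClassical.HermSiegel Cfsg.Agent.H106.RC
  Cfsg.Agent.H380.RC MulAction Cfsg.Agent.ClassicalGeometry.PSUAutBasic Cfsg.Agent.ClassicalGeometry.PSUAutCount
  Cfsg.Agent.ClassicalGeometry

section tv

variable {K : Type*} [Field K] [Fintype K] {m Q : ℕ}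

theorem act_transv_pow (hK : Fintype.card K = Q ^ 2) {e : Fin m → K} (he : hermForm m K Q e e = 0) {μ : K}
    (hμ : μ + μ ^ Q = 0) (k : ℕ) (v : Fin m → K) :
    act (transv hK e he μ hμ ^ k) v = v + ((k : K) * (μ * hermForm m K Q v e)) • e := by
  induction k with
  | zero => rw [pow_zero, act_one, Nat.cast_zero, zero_mul, zero_smul, add_zero]
  | succ k ih =>
    rw [pow_succ', act_mul, ih, act_transv, herm_add_left, herm_smul_left, he, mul_zero, add_zero, Nat.cast_succ]
    funext i
    simp only [Pi.add_apply, Pi.smul_apply, smul_eq_mul]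
    ring

theorem transv_pow_char (hK : Fintype.card K = Q ^ 2) {p : ℕ} [CharP K p] {e : Fin m → K}
    (he : hermForm m K Q e e = 0) {μ : K} (hμ : μ + μ ^ Q = 0) : transv hK e he μ hμ ^ p = 1 := by
  apply ext_act
  intro v
  rw [act_transv_pow, CharP.cast_eq_zero, zero_mul, zero_smul, add_zero, act_one]

theorem iterate_act (g : SU m K Q) (k : ℕ) (v : Fin m → K) : (act g)^[k] v = act (g ^ k) v := by
  induction k generalizing v with
  | zero => rw [pow_zero, act_one]; rfl
  | succ k ih => rw [Function.iterate_succ_apply, ih, pow_succ, act_mul]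

end tv

section fld

variable {F : Type} [Field F] [Fintype F] {n q : ℕ} {K : Type} [Field K] [Fintype K] [Algebra F K]
  [Module K (Fin n → F)] [IsScalarTower F K (Fin n → F)] {m l : ℕ} {ψ : (Fin m → K) ≃ₗ[K] (Fin n → F)}
  (h : KS q l ψ)
include h

/-- the conjugates of the image of `SU_m(K)` -/
theorem KS.conj {f : (Fin n → F) → (Fin n → F)} {A : Cfsg.GU m K (q ^ l)}
    (hA : ∀ a : Fin m → K, ψ (gm A *ᵥ a) = f (ψ a)) (s : SU m K (q ^ l)) (v : Fin n → F) :
    f (act (h.phi s) v) = act (h.phi (semiConj A (RingEquiv.refl K) s)) (f v) := by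
  obtain ⟨a, rfl⟩ := ψ.surjective v
  rw [h.act_phi', ← hA, ← hA, h.act_phi']
  congr 1
  exact (act_semiConj A (RingEquiv.refl K) s a).symm

omit h in
theorem toAut_one {m' Q : ℕ} : (toAut (1 : Cfsg.GU m' K Q) (RingEquiv.refl K) : MulAut (PSU m' K Q)) = 1 := by
  ext x
  obtain ⟨g, rfl⟩ := pr_surjective x
  rw [show (toAut (1 : Cfsg.GU m' K Q) (RingEquiv.refl K) : MulAut (PSU m' K Q)) (pr m' K Q g) =
    pr m' K Q (semiConj 1 (RingEquiv.refl K) g) from rfl, MulAut.one_apply]
  congr 1
  apply ext_act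
  intro v
  have h4 := act_semiConj (1 : Cfsg.GU m' K Q) (RingEquiv.refl K) g v
  rw [gm_one, one_mulVec, one_mulVec] at h4
  exact h4

variable {G Ω : Type} [Group G] [MulAction G Ω] {N : Subgroup G} (U : UEnv G Ω N F n q)

theorem KS.ker {s : SU m K (q ^ l)} (hs : U.el (h.phi s) = 1) : pr m K (q ^ l) s = 1 := by
  rw [U.el_eq_one] at hs
  obtain ⟨c, -, -, hc⟩ := exists_scalar_of_mem_center h.hF U.hn hs
  rw [pr_eq_one_iff]
  apply mem_center_of_act (c := algebraMap F K c)
  intro a
  apply ψ.injective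
  rw [← h.act_phi', hc, map_smul, algebraMap_smul]

/-- an element centralising the image of `SU_m(K)` is in `K` -/
theorem KS.cent {x : G} {f : (Fin n → F) → (Fin n → F)} (hl : U.Lft x f) {A : Cfsg.GU m K (q ^ l)}
    (hA : ∀ a : Fin m → K, ψ (gm A *ᵥ a) = f (ψ a))
    (hx : ∀ s, x * U.el (h.phi s) = U.el (h.phi s) * x) : ∃ k : K, ∀ v, f v = k • v := by
  have h1 : (toAut (1 : Cfsg.GU m K (q ^ l)) (RingEquiv.refl K) : MulAut (PSU m K (q ^ l))) =
      toAut A (RingEquiv.refl K) := by
    rw [toAut_one]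
    ext y
    obtain ⟨s, rfl⟩ := pr_surjective y
    rw [MulAut.one_apply, show (toAut A (RingEquiv.refl K) : MulAut (PSU m K (q ^ l))) (pr m K (q ^ l) s) =
      pr m K (q ^ l) (semiConj A (RingEquiv.refl K) s) from rfl]
    have h2 := hl.conj_el (h.conj hA s)
    rw [hx, mul_inv_cancel_right] at h2
    have h3 := h.ker U (s := s⁻¹ * semiConj A (RingEquiv.refl K) s) (by
      rw [map_mul, map_inv, map_mul, map_inv, ← h2, inv_mul_cancel])
    rw [map_mul, map_inv, inv_mul_eq_one] at h3
    exact h3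
  obtain ⟨-, c, -, hc⟩ := eq_of_toAut_eq h.hK h.hm h1
  refine ⟨c, fun v => ?_⟩
  obtain ⟨a, rfl⟩ := ψ.surjective v
  rw [← hA, hc, gm_one, ← map_smul]
  congr 1
  rw [smul_mulVec, one_mulVec]

end fld

/-- **Box E6b (L).** -/
theorem lstmt (hdec : DecStmt) (hsmall : SmallStmt) : LStmt := by
  intro G Ω _ _ _ _ _ N F _ _ n q U ι _ x f r hfam hcov
  rintro ⟨K, _, _, _, _, _, hadj, hcomm, hK1, hm3, hIH⟩
  classical
  have hn0 : 0 < n := by have := U.hn; omega
  obtain ⟨l, m, hn, hodd, hcK, hl, ψ, hψ⟩ := kstruct U.hF hn0 hadj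
  have hq2 := two_le U.hF
  have hm : m = finrank K (Fin n → F) := by
    rw [← LinearEquiv.finrank_eq ψ, Module.finrank_fin_fun]
  have h3m : 3 ≤ m := by rw [hm]; exact hm3
  have h3l : 3 ≤ l := by
    obtain ⟨k, hk⟩ := hodd
    omega
  have hQ : 8 ≤ q ^ l :=
    calc 8 = 2 ^ 3 := by norm_num
      _ ≤ 2 ^ l := Nat.pow_le_pow_right (by norm_num) h3l
      _ ≤ q ^ l := Nat.pow_le_pow_left hq2 l
  have h : KS q l ψ := ⟨U.hF, hcK, h3m, fun hh => by omega, hψ⟩
  -- the action of the `x i`
  have hlin : ∀ i (c : F) (v : Fin n → F), f i (c • v) = c • f i v := by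
    intro i c v
    rw [← algebraMap_smul K c v, hcomm, algebraMap_smul]
  have hA : ∀ i, ∃ A : Cfsg.GU m K (q ^ l), ∀ a : Fin m → K, ψ (gm A *ᵥ a) = f i (ψ a) := by
    intro i
    have hind := (hfam.lft i).ind
    obtain ⟨ρ, hρ1, hρ2⟩ := hind.exists_rho
    obtain ⟨g, -, hg1, hg2⟩ := hind.bij
    have hρ : ∀ c, ρ c = c := by
      intro c
      have hw : f i (Pi.single ⟨0, hn0⟩ 1) ≠ 0 := by
        intro h0
        have h1 := hind.injective (h0.trans hind.map_zero.symm)
        have h2 := congrFun h1 ⟨0, hn0⟩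
        rw [Pi.single_eq_same] at h2
        exact one_ne_zero h2
      have h1 := hρ1 c (Pi.single ⟨0, hn0⟩ 1)
      rw [hlin, ← sub_eq_zero, ← sub_smul, smul_eq_zero] at h1
      rcases h1 with h1 | h1
      · exact (sub_eq_zero.1 h1).symm
      · exact absurd h1 hw
    exact h.exists_gu hind.map_add (hcomm i) (fun v w => by rw [hρ2, hρ]) hg1 hg2
  choose A hA using hA
  -- the M-rule
  let κ : SU m K (q ^ l) →* G := U.el.comp h.phi
  have hκ : ∀ s, κ s = U.el (h.phi s) := fun _ => rfl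
  have hS := hsmall U.hF U.hn U.h32 hIH
  have hRC : RC (PSU m K (q ^ l)) := hS.2.1 K l m hn h3l h3m hcK
  have hrule : ∀ ω : Ω, (∀ s, κ s • ω = ω) ∨ ∃ j, (∀ s, x j * κ s = κ s * x j) ∧ x j • ω = ω := fun ω =>
    mrule_hom_pf (simple_psu hcK h3m h.h32) (notComm_psu hcK h3m h.h32) κ
      (by rw [← commutator_def, perf_su hcK h3m h.h32]) (pr m K (q ^ l)) pr_surjective
      (fun s hs => h.ker U hs) (fun s hs => pr_eq_one_iff.1 hs) hfam.pf
      (fun i s => ⟨_, (hfam.lft i).conj_el (h.conj (hA i) s)⟩) (Or.inl hRC) hcov ω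
  -- the transvection
  let i0 : Fin m := ⟨0, by omega⟩
  let i1 : Fin m := ⟨1, by omega⟩
  have hi01 : i0 ≠ i1 := by simp [i0, i1]
  obtain ⟨t, ht⟩ := exists_norm_eq hcK (c := (-1 : K)) (by rw [neg_pow_q hcK, one_pow])
  obtain ⟨μ, hμ0, hμ⟩ := exists_trace_zero_ne hcK
  let pt : K → K → (Fin m → K) := fun a b => Pi.single i0 a + Pi.single i1 b
  have hpt0 : ∀ a b, pt a b i0 = a := by
    intro a b
    change (Pi.single i0 a + Pi.single i1 b : Fin m → K) i0 = a
    rw [Pi.add_apply, Pi.single_eq_same, Pi.single_eq_of_ne hi01, add_zero]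
  have hpt1 : ∀ a b, pt a b i1 = b := by
    intro a b
    change (Pi.single i0 a + Pi.single i1 b : Fin m → K) i1 = b
    rw [Pi.add_apply, Pi.single_eq_same, Pi.single_eq_of_ne hi01.symm, zero_add]
  have hptadd : ∀ a b a' b', pt a b + pt a' b' = pt (a + a') (b + b') := by
    intro a b a' b'
    change (Pi.single i0 a + Pi.single i1 b + (Pi.single i0 a' + Pi.single i1 b') : Fin m → K) =
      Pi.single i0 (a + a') + Pi.single i1 (b + b')
    rw [Pi.single_add, Pi.single_add]
    abel
  have hptsmul : ∀ c a b, c • pt a b = pt (c * a) (c * b) := by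
    intro c a b
    change c • (Pi.single i0 a + Pi.single i1 b : Fin m → K) = Pi.single i0 (c * a) + Pi.single i1 (c * b)
    rw [smul_add, ← Pi.single_smul', ← Pi.single_smul', smul_eq_mul, smul_eq_mul]
  have hherm : ∀ a b u, hermForm m K (q ^ l) (pt a b) u = a * u i0 ^ (q ^ l) + b * u i1 ^ (q ^ l) := by
    intro a b u
    change hermForm m K (q ^ l) (Pi.single i0 a + Pi.single i1 b) u = _
    rw [herm_add_left, herm_single_left, herm_single_left]
  have he : hermForm m K (q ^ l) (pt 1 t) (pt 1 t) = 0 := by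
    rw [hherm, hpt0, hpt1, one_pow, ht]
    ring
  set a0 : SU m K (q ^ l) := transv hcK (pt 1 t) he μ hμ with ha0
  have hact : ∀ v, act a0 v = v + (μ * hermForm m K (q ^ l) v (pt 1 t)) • pt 1 t := fun v =>
    act_transv hcK he hμ v
  -- the subspace
  let AF : Submodule F (Fin n → F) :=
    { carrier := {v | ∃ a b : K, v = ψ (pt a b)}
      add_mem' := by
        rintro _ _ ⟨a, b, rfl⟩ ⟨a', b', rfl⟩
        exact ⟨a + a', b + b', by rw [← map_add, hptadd]⟩
      zero_mem' := ⟨0, 0, by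
        have : pt 0 0 = 0 := by
          change (Pi.single i0 0 + Pi.single i1 0 : Fin m → K) = 0
          rw [Pi.single_zero, Pi.single_zero, add_zero]
        rw [this, map_zero]⟩
      smul_mem' := by
        rintro c _ ⟨a, b, rfl⟩
        exact ⟨algebraMap F K c * a, algebraMap F K c * b, by rw [← hptsmul, map_smul, algebraMap_smul]⟩ }
  have hmem : ∀ v, v ∈ AF ↔ ∃ a b : K, v = ψ (pt a b) := fun v => Iff.rfl
  have hsm : ∀ (c : F) (k : K), algebraMap F K c * k = c • k := fun c k => (Algebra.smul_def c k).symm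
  let eA : (K × K) ≃ₗ[F] AF :=
    { toFun := fun c => ⟨ψ (pt c.1 c.2), c.1, c.2, rfl⟩
      invFun := fun v => (ψ.symm v.1 i0, ψ.symm v.1 i1)
      left_inv := fun c => by
        refine Prod.ext ?_ ?_
        · change ψ.symm (ψ (pt c.1 c.2)) i0 = _
          rw [LinearEquiv.symm_apply_apply, hpt0]
        · change ψ.symm (ψ (pt c.1 c.2)) i1 = _
          rw [LinearEquiv.symm_apply_apply, hpt1]
      right_inv := by
        rintro ⟨_, a, b, rfl⟩
        apply Subtype.ext
        change ψ (pt (ψ.symm (ψ (pt a b)) i0) (ψ.symm (ψ (pt a b)) i1)) = ψ (pt a b)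
        rw [LinearEquiv.symm_apply_apply, hpt0, hpt1]
      map_add' := fun c d => by
        apply Subtype.ext
        change ψ (pt (c.1 + d.1) (c.2 + d.2)) = ψ (pt c.1 c.2) + ψ (pt d.1 d.2)
        rw [← map_add, hptadd]
      map_smul' := fun a c => by
        apply Subtype.ext
        change ψ (pt (a • c.1) (a • c.2)) = a • ψ (pt c.1 c.2)
        rw [← hsm, ← hsm, ← hptsmul, map_smul, algebraMap_smul] }
  have hfdK : FiniteDimensional F K := Module.Finite.of_finite
  have hrank : finrank F AF = 2 * l := by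
    rw [← LinearEquiv.finrank_eq eA, Module.finrank_prod, hl]
    ring
  have hfamily : ∀ j, (∀ s, x j * κ s = κ s * x j) → ∃ k : K, ∀ v, f j v = k • v := fun j hj =>
    h.cent U (hfam.lft j) (hA j) hj
  obtain ⟨p, kq, hp, hcp, hqp, hkq⟩ := exists_prime_pow U.hF
  have : Fact p.Prime := ⟨hp⟩
  have hcpK : CharP K p := charP_of_injective_algebraMap (algebraMap F K).injective p
  have hrp : ∀ j, (∀ s, x j * κ s = κ s * x j) → r j ≠ p := by
    intro j hj hrj
    obtain ⟨k, hk⟩ := hfamily j hj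
    obtain ⟨b, hb⟩ := hfam.ord j
    have h1 : ∀ i : ℕ, ∀ v, (f j)^[i] v = k ^ i • v := by
      intro i
      induction i with
      | zero => intro v; rw [pow_zero, one_smul]; rfl
      | succ i ih => intro v; rw [Function.iterate_succ_apply', ih, hk, smul_smul, ← pow_succ']
    have h2 : k = 1 := by
      have hw : ψ (pt 1 0) ≠ 0 := by
        intro h0
        have h3 : pt 1 0 = 0 := by
          apply ψ.injective
          rw [h0, map_zero]
        have h4 := congrFun h3 i0
        rw [hpt0] at h4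
        exact one_ne_zero h4
      have h3 := hb (ψ (pt 1 0))
      rw [h1, hrj] at h3
      have h4 : (k ^ p ^ b - 1) • ψ (pt 1 0) = 0 := by rw [sub_smul, one_smul, h3, sub_self]
      rcases smul_eq_zero.1 h4 with h5 | h5
      · have h6 : (k - 1) ^ p ^ b = 0 := by rw [sub_pow_char_pow, one_pow]; exact h5
        exact sub_eq_zero.1 (eq_zero_of_pow_eq_zero h6)
      · exact absurd h5 hw
    apply hfam.pf.ne j
    rw [(hfam.lft j).eq_one_iff]
    exact ⟨1, fun v => by rw [hk, h2, one_smul, one_smul]⟩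
  -- the new family
  let J : Type := {j : ι // ∀ s, x j * κ s = κ s * x j}
  let x' : Option J → G := fun o => o.elim (κ a0) (fun j => x j.1)
  let f' : Option J → (Fin n → F) → (Fin n → F) := fun o => o.elim (act (h.phi a0)) (fun j => f j.1)
  let r' : Option J → ℕ := fun o => o.elim p (fun j => r j.1)
  have hnotsc : ¬ ScalOn (act (h.phi a0)) AF := by
    rintro ⟨c, hc⟩
    have h1 := hc (ψ (pt 1 t)) ⟨1, t, rfl⟩
    rw [h.act_phi', hact, he, mul_zero, zero_smul, add_zero] at h1
    have h2 : c = 1 := by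
      have h3 : (c - 1) • ψ (pt 1 t) = 0 := by rw [sub_smul, one_smul, ← h1, sub_self]
      rcases smul_eq_zero.1 h3 with h4 | h4
      · exact sub_eq_zero.1 h4
      · exfalso
        have h5 : pt 1 t = 0 := by
          apply ψ.injective
          rw [h4, map_zero]
        have h6 := congrFun h5 i0
        rw [hpt0] at h6
        exact one_ne_zero h6
    have h3 := hc (ψ (pt 1 0)) ⟨1, 0, rfl⟩
    rw [h.act_phi', hact, h2, one_smul, hherm, hpt0, one_pow, zero_mul, add_zero, mul_one, mul_one] at h3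
    have h4 := ψ.injective h3
    have h5 := congrFun h4 i0
    rw [Pi.add_apply, Pi.smul_apply, hpt0, hpt0, smul_eq_mul, mul_one] at h5
    exact hμ0 (by simpa using h5)
  have hy1 : κ a0 ≠ 1 := by
    intro h1
    have h2 : U.Lft (κ a0) (act (h.phi a0)) := U.lft_el _
    obtain ⟨c, hc⟩ := h2.eq_one_iff.1 h1
    exact hnotsc ⟨c, fun v _ => hc v⟩
  have ha0p : a0 ^ p = 1 := transv_pow_char hcK he hμ
  have hfam' : UFam U x' f' r' := by
    refine ⟨⟨?_, ?_, ?_, ?_, ?_⟩, ?_, ?_, ?_⟩
    · rintro (_ | j)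
      · exact hp
      · exact hfam.pf.prime j.1
    · rintro (_ | i) (_ | j) hij
      · rfl
      · exact absurd hij.symm (hrp j.1 j.2)
      · exact absurd hij (hrp i.1 i.2)
      · exact congrArg some (Subtype.ext (hfam.pf.inj hij))
    · rintro (_ | j)
      · change κ a0 ^ p = 1
        rw [← map_pow, ha0p, map_one]
      · exact hfam.pf.pow j.1
    · rintro (_ | j)
      · exact hy1
      · exact hfam.pf.ne j.1
    · rintro (_ | i) (_ | j)
      · rfl
      · exact (j.2 a0).symm
      · exact i.2 a0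
      · exact hfam.pf.comm i.1 j.1
    · rintro (_ | j)
      · exact U.lft_el _
      · exact hfam.lft j.1
    · rintro (_ | i) (_ | j) v
      · rfl
      · obtain ⟨k, hk⟩ := hfamily j.1 j.2
        change act (h.phi a0) (f j.1 v) = f j.1 (act (h.phi a0) v)
        rw [hk, hk, h.act_phi, h.act_phi, map_smul, act_smul, map_smul]
      · obtain ⟨k, hk⟩ := hfamily i.1 i.2
        change f i.1 (act (h.phi a0) v) = act (h.phi a0) (f i.1 v)
        rw [hk, hk, h.act_phi, h.act_phi, map_smul, act_smul, map_smul]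
      · exact hfam.comm i.1 j.1 v
    · rintro (_ | j)
      · refine ⟨1, fun v => ?_⟩
        change (act (h.phi a0))^[p ^ 1] v = v
        rw [pow_one, iterate_act, ← map_pow, ha0p, map_one, act_one]
      · exact hfam.ord j.1
  have hcov' : Cov Ω x' := by
    intro ω
    rcases hrule ω with h1 | ⟨j, hj, hjω⟩
    · exact ⟨none, h1 a0⟩
    · exact ⟨some ⟨j, hj⟩, hjω⟩
  have hfin : Finite (Option J) := inferInstance
  refine hdec U x' f' r' hfam' hcov' ⟨AF, ?_, ?_, ?_, ?_, ?_, ?_, ?_⟩
  · -- nondegenerate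
    rintro v ⟨a, b, rfl⟩ hv
    have hsurj : ∀ z : K, ∃ k : K, k ^ (q ^ l) = z := fun z => ⟨z ^ (q ^ l), pow_q_pow_q hcK z⟩
    have ha : a = 0 := by
      apply trace_unique (F := F)
      intro z
      obtain ⟨k, rfl⟩ := hsurj z
      have h1 := hv (ψ (pt k 0)) ⟨k, 0, rfl⟩
      rw [hψ, hherm, hpt0, hpt1, zero_pow_q hcK, mul_zero, add_zero] at h1
      rw [h1, zero_mul, map_zero]
    have hb : b = 0 := by
      apply trace_unique (F := F)
      intro z
      obtain ⟨k, rfl⟩ := hsurj z
      have h1 := hv (ψ (pt 0 k)) ⟨0, k, rfl⟩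
      rw [hψ, hherm, hpt0, hpt1, zero_pow_q hcK, mul_zero, zero_add] at h1
      rw [h1, zero_mul, map_zero]
    have h0 := AF.zero_mem
    have h1 : pt a b = 0 := by
      rw [ha, hb]
      change (Pi.single i0 0 + Pi.single i1 0 : Fin m → K) = 0
      rw [Pi.single_zero, Pi.single_zero, add_zero]
    rw [h1, map_zero]
  · intro htop
    rw [htop, finrank_top, Module.finrank_fin_fun, hn] at hrank
    have : 3 * l ≤ m * l := Nat.mul_le_mul_right l h3m
    omega
  · rw [hrank]
    omega
  · rw [hrank]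
    omega
  · rintro (_ | j)
    · rintro _ ⟨a, b, rfl⟩
      change act (h.phi a0) (ψ (pt a b)) ∈ AF
      rw [h.act_phi', hact, hptsmul, hptadd]
      exact ⟨_, _, rfl⟩
    · obtain ⟨k, hk⟩ := hfamily j.1 j.2
      rintro _ ⟨a, b, rfl⟩
      change f j.1 (ψ (pt a b)) ∈ AF
      rw [hk, ← map_smul, hptsmul]
      exact ⟨_, _, rfl⟩
  · rintro (_ | j) hsc
    · exact absurd hsc hnotsc
    · change (r j.1).Coprime q
      have h1 : (r j.1).Coprime (p ^ kq) :=
        Nat.Coprime.pow_right _ ((Nat.coprime_primes (hfam.pf.prime j.1) hp).2 (hrp j.1 j.2))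
      rw [← hqp] at h1
      exact h1
  · have h2l : 2 * l < n := by
      rw [hn]
      have : 3 * l ≤ m * l := Nat.mul_le_mul_right l h3m
      omega
    have key : ∀ d, d = 2 * l → RC (PSU d F q) := by
      rintro d rfl
      exact hS.1 (2 * l) (by omega) h2l (by omega)
    exact key _ hrank

end Cfsg.Agent.H398.RC
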