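import Cfsg.Agent.H398.RC.FldAlg
import Cfsg.Agent.H743.RC.Red

/-!
# S3510, family E, box E8: `StrStmt` (helper398; the reducible case is by helper743)
-/

set_option autoImplicit false

namespace Cfsg.Agent.H398.RC

open Module Cfsg Cfsg.Agent.LieClassical.HermBasic Cfsg.Agent.H380.RC

/-- **Box E8.** -/
theorem str_main : StrStmt := by
  intro F _ _ n q hF hn ι _ f hl ha hi hc hm
  classical
  have := Fintype.ofFinite ι
  have hq2 := two_le hF
  let g : ι → Module.End F (Fin n → F) := fun i =>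
    { toFun := f i, map_add' := ha i, map_smul' := fun c v => hl i c v }
  have hgk : ∀ (i : ι) (k : ℕ) v, (g i ^ k) v = (f i)^[k] v := by
    intro i k
    induction k with
    | zero => intro v; rfl
    | succ k ih =>
      intro v
      rw [pow_succ, Module.End.mul_apply, ih, Function.iterate_succ_apply]
      rfl
  have hm' := hm
  choose m hmq hmv using hm'
  have hNq : (∏ i, m i).Coprime q := Nat.Coprime.prod_left fun i _ => hmq i
  have hN : 0 < ∏ i, m i := by
    rcases Nat.eq_zero_or_pos (∏ i, m i) with h | h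
    · rw [h, Nat.coprime_zero_left] at hNq
      omega
    · exact h
  have hgN : ∀ i, g i ^ (∏ i, m i) = 1 := by
    intro i
    obtain ⟨t, ht⟩ := Finset.dvd_prod_of_mem m (Finset.mem_univ i)
    have h1 : g i ^ m i = 1 := by
      apply LinearMap.ext
      intro v
      rw [hgk, hmv]
      rfl
    rw [ht, pow_mul, h1, one_pow]
  have hcomm : ∀ i j, g i * g j = g j * g i := fun i j => LinearMap.ext fun v => hc i j v
  have hS : ∀ a ∈ Set.range g, ∀ b ∈ Set.range g, a * b = b * a := by
    rintro _ ⟨i, rfl⟩ _ ⟨j, rfl⟩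
    exact hcomm i j
  have hG : ∀ G ∈ Set.range g, ∀ v w, hermForm n F q (G v) (G w) = hermForm n F q v w := by
    rintro _ ⟨i, rfl⟩
    exact hi i
  have hGN : ∀ G ∈ Set.range g, G ^ (∏ i, m i) = 1 := by
    rintro _ ⟨i, rfl⟩
    exact hgN i
  rcases set_split hF (by omega) hS hG hNq hGN with ⟨A, h1, h2, h3, h4⟩ | ⟨W, W', h1, h2, h3, h4⟩ | hR
  · rcases Cfsg.Agent.H743.RC.reducible hF hn hl ha hi hc hm h1 (fun i => h4 (g i) ⟨i, rfl⟩) h2 h3 with h | h | h | h
    · exact Or.inl h
    · exact Or.inr (Or.inl h)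
    · exact Or.inr (Or.inr (Or.inr (Or.inr (Or.inr (Or.inl h)))))
    · exact Or.inr (Or.inr (Or.inr (Or.inr (Or.inr (Or.inr h)))))
  · exact Or.inr (Or.inr (Or.inl ⟨W, W', h1, h2, h3, fun i => h4 (g i) ⟨i, rfl⟩⟩))
  · rcases fld_split hF hn hcomm hi hN hgN hR with h | h | h | h
    · exact Or.inl h
    · exact Or.inr (Or.inr (Or.inl h))
    · exact Or.inr (Or.inr (Or.inr (Or.inl h)))
    · exact Or.inr (Or.inr (Or.inr (Or.inr (Or.inl h))))

end Cfsg.Agent.H398.RC
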