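import Cfsg.Agent.H398.RC.Corner

/-!
# The corner field `eR` with an involution: the number of elements (helper398)
-/

set_option autoImplicit false
set_option linter.unusedSectionVars false

namespace Cfsg.Agent.H398.RC

open Cfsg Cfsg.Agent.LieClassical.HermBasic

theorem corner_card {R : Type*} [CommRing R] [Finite R] {F : Type} [Field F] [Fintype F] {q : ℕ}
    (hF : Fintype.card F = q ^ 2) (hq : 3 ≤ q) (ι : F →+* R) (σ : R ≃+* R) (hσ : ∀ a, σ (σ a) = a)
    (hσι : ∀ c, σ (ι c) = ι (c ^ q)) {e : R} (he : e * e = e) (he0 : e ≠ 0) (hσe : σ e = e) {Q : ℕ}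
    (hfld : ∀ a, a * e = a → a ≠ 0 → a ^ (Q - 1) = e) (hQ2 : 2 ≤ Q) :
    (∀ a, a * e = a → ∃ c : F, a = ι c * e) ∨ q ^ 6 ≤ Nat.card {a : R // a * e = a} := by
  classical
  let I : Ideal R := Ideal.span {1 - e}
  have hI : ∀ a : R, a ∈ I ↔ a * e = 0 := by
    intro a
    rw [Ideal.mem_span_singleton']
    constructor
    · rintro ⟨r, rfl⟩
      rw [mul_assoc, sub_mul, one_mul, he, sub_self, mul_zero]
    · intro h
      exact ⟨a, by rw [mul_sub, mul_one, h, sub_zero]⟩
  let K := R ⧸ I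
  let π : R →+* K := Ideal.Quotient.mk I
  have hπ : Function.Surjective π := Ideal.Quotient.mk_surjective
  have hπe : π e = 1 := by
    rw [← map_one π]
    apply Ideal.Quotient.eq.2
    rw [hI, sub_mul, he, one_mul, sub_self]
  have hinj : ∀ a b : R, a * e = a → b * e = b → π a = π b → a = b := by
    intro a b ha hb h
    have h1 := (hI _).1 (Ideal.Quotient.eq.1 h)
    rw [sub_mul, ha, hb] at h1
    exact sub_eq_zero.1 h1
  have hex : ∀ x : K, ∃ a : R, a * e = a ∧ π a = x := by
    intro x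
    obtain ⟨a, rfl⟩ := hπ x
    exact ⟨a * e, by rw [mul_assoc, he], by rw [map_mul, hπe, mul_one]⟩
  choose L hLe hLπ using hex
  have hL : ∀ (a : R) (x : K), a * e = a → π a = x → L x = a := fun a x h1 h2 =>
    hinj _ _ (hLe x) h1 (by rw [hLπ, h2])
  have hLmul : ∀ x y, L (x * y) = L x * L y := fun x y =>
    hL _ _ (by rw [mul_assoc, hLe]) (by rw [map_mul, hLπ, hLπ])
  have hL1 : L 1 = e := hL _ _ he hπe
  have hLpow : ∀ x (k : ℕ), L (x ^ k) = L x ^ k * e := by
    intro x k
    apply hL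
    · rw [mul_assoc, he]
    · rw [map_mul, map_pow, hLπ, hπe, mul_one]
  have hLpow' : ∀ x (k : ℕ), 0 < k → L (x ^ k) = L x ^ k := by
    intro x k hk
    rw [hLpow, ← Nat.sub_add_cancel hk, pow_succ, mul_assoc, hLe]
  have hK : IsField K := by
    refine ⟨⟨0, 1, ?_⟩, fun x y => mul_comm x y, fun {x} hx => ⟨x ^ (Q - 2), ?_⟩⟩
    · intro h
      apply he0
      have h1 : π 0 = π e := by rw [map_zero, hπe, h]
      exact (hinj 0 e (zero_mul _) he h1).symm
    · have h1 : L x ≠ 0 := by
        intro h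
        apply hx
        rw [← hLπ x, h, map_zero]
      have h2 := congrArg π (hfld _ (hLe x) h1)
      rw [map_pow, hLπ, hπe] at h2
      rw [← pow_succ', show Q - 2 + 1 = Q - 1 by omega, h2]
  let _ : Field K := hK.toField
  have hKfin : Finite K := Finite.of_surjective π hπ
  let _ : Fintype K := Fintype.ofFinite K
  -- the involution
  let s : K ≃+* K := Ideal.quotientEquiv I I σ (by
    change I = (Ideal.span {1 - e}).map (σ : R →+* R)
    have h1 : (σ : R →+* R) (1 - e) = 1 - e := by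
      change σ (1 - e) = 1 - e
      rw [map_sub, map_one, hσe]
    rw [Ideal.map_span, Set.image_singleton, h1])
  have hsπ : ∀ a, s (π a) = π (σ a) := fun a => rfl
  have hss : ∀ x, s (s x) = x := by
    intro x
    obtain ⟨a, rfl⟩ := hπ x
    rw [hsπ, hsπ, hσ]
  let κ : F →+* K := π.comp ι
  have hκ : Function.Injective κ := κ.injective
  have hsκ : ∀ c, s (κ c) = κ (c ^ q) := by
    intro c
    change s (π (ι c)) = π (ι (c ^ q))
    rw [hsπ, hσι]
  obtain ⟨c₀, hc₀⟩ := exists_not_fixed hF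
  obtain ⟨P, hP, hsP⟩ := inv_eq_pow s hss ⟨κ c₀, fun h1 => hc₀ (hκ (by rw [← hsκ, h1]))⟩
  have hLs : ∀ x, σ (L x) = L (s x) := by
    intro x
    symm
    apply hL
    · have h1 := congrArg σ (hLe x)
      rwa [map_mul, hσe] at h1
    · rw [← hsπ, hLπ]
  have hP1 : 1 < P := by
    have h1 : 1 < Fintype.card K := Fintype.one_lt_card
    rw [hP] at h1
    by_contra h
    have h2 : P ^ 2 ≤ 1 ^ 2 := Nat.pow_le_pow_left (by omega) 2
    omega
  let _ : Algebra F K := κ.toAlgebra
  obtain ⟨b, hb⟩ : ∃ b, b = Module.finrank F K := ⟨_, rfl⟩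
  have hPb : P = q ^ b := by
    have h1 := Module.card_eq_pow_finrank (K := F) (V := K)
    rw [hF, ← hb, hP, ← pow_mul, mul_comm 2 b, pow_mul] at h1
    exact Nat.pow_left_injective (by norm_num : 2 ≠ 0) h1
  have hpowc : ∀ (c : F) (t : ℕ), c ^ (q ^ (2 * t)) = c := by
    intro c t
    rw [pow_mul, ← hF]
    exact FiniteField.pow_card_pow t c
  have hbodd : Odd b := by
    by_contra hev
    rw [Nat.not_odd_iff_even] at hev
    obtain ⟨k, hk⟩ := hev
    apply hc₀
    apply hκ
    rw [← hsκ, hsP, ← map_pow, hPb, hk, ← two_mul, hpowc]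
  by_cases hb1 : b = 1
  · left
    intro a ha
    obtain ⟨c, hc⟩ := (finrank_eq_one_iff_of_nonzero' (1 : K) one_ne_zero).1 (hb.symm.trans hb1) (π a)
    refine ⟨c, ?_⟩
    rw [← hL _ _ ha rfl]
    apply hL
    · rw [mul_assoc, he]
    · rw [map_mul, hπe, mul_one, ← hc, Algebra.smul_def, mul_one]
      rfl
  · right
    have hb3 : 3 ≤ b := by
      obtain ⟨k, hk⟩ := hbodd
      omega
    have h1 : Nat.card K ≤ Nat.card {a : R // a * e = a} := by
      refine Nat.card_le_card_of_injective (fun x => ⟨L x, hLe x⟩) fun x y h => ?_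
      have h2 : L x = L y := congrArg Subtype.val h
      rw [← hLπ x, ← hLπ y, h2]
    refine le_trans ?_ h1
    rw [Nat.card_eq_fintype_card, hP, hPb, ← pow_mul]
    exact Nat.pow_le_pow_right (by omega) (by omega)

end Cfsg.Agent.H398.RC
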