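import Cfsg.Agent.H398.RC.SetAlg

/-!
# S3510, family E, box E8: the case that the algebra is a field (helper398)
-/

set_option autoImplicit false
set_option linter.unusedSectionVars false

namespace Cfsg.Agent.H398.RC

open Module Cfsg Cfsg.Agent.LieClassical.HermBasic Cfsg.Agent.ClassicalGeometry Cfsg.Agent.H380.RC

variable {F : Type} [Field F] [Fintype F] {n q : ℕ}

/-- a singular vector -/
theorem exists_sing (hF : Fintype.card F = q ^ 2) (hn : 2 ≤ n) : ∃ e : Fin n → F, e ≠ 0 ∧ hermForm n F q e e = 0 := by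
  have hq2 := two_le hF
  obtain ⟨a, ha⟩ := exists_norm_eq hF (c := -1) (by rw [neg_pow_q hF, one_pow])
  let i₀ : Fin n := ⟨0, by omega⟩
  let i₁ : Fin n := ⟨1, by omega⟩
  have h01 : i₀ ≠ i₁ := fun h => absurd (congrArg Fin.val h) (by norm_num [i₀, i₁])
  have e0 : (Pi.single i₀ 1 + Pi.single i₁ a : Fin n → F) i₀ = 1 := by
    rw [Pi.add_apply, Pi.single_eq_same, Pi.single_eq_of_ne h01, add_zero]
  have e1 : (Pi.single i₀ 1 + Pi.single i₁ a : Fin n → F) i₁ = a := by
    rw [Pi.add_apply, Pi.single_eq_same, Pi.single_eq_of_ne h01.symm, zero_add]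
  refine ⟨Pi.single i₀ 1 + Pi.single i₁ a, ?_, ?_⟩
  · intro h
    have h1 := congrFun h i₀
    rw [e0] at h1
    exact one_ne_zero h1
  · rw [herm_add_left, herm_single_left, herm_single_left, e0, e1, one_pow, one_mul, ha, add_neg_cancel]

variable {R : Subalgebra F (Module.End F (Fin n → F))}

/-- the field structure, the structure theorem -/
theorem FldAlg.dims (hF : Fintype.card F = q ^ 2) (hn : 0 < n) (hR : FldAlg q R) :
    ∃ (K : Type) (_ : Field K) (_ : Fintype K) (_ : Algebra F K) (_ : Module K (Fin n → F))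
      (_ : IsScalarTower F K (Fin n → F)) (φ : K ≃ R) (l m : ℕ), (∀ (a : K) v, a • v = (φ a).1 v) ∧
      (∀ a b, φ (a * b) = φ a * φ b) ∧
      (∀ a : K, ∃ b : K, ∀ v w : Fin n → F, hermForm n F q (a • v) w = hermForm n F q v (b • w)) ∧
      n = m * l ∧ Odd l ∧ Fintype.card K = (q ^ l) ^ 2 ∧ Nat.card R = (q ^ l) ^ 2 ∧ finrank F K = l ∧
      finrank K (Fin n → F) = m ∧
      ∃ ψ : (Fin m → K) ≃ₗ[K] (Fin n → F), ∀ a b : Fin m → K,
        hermForm n F q (ψ a) (ψ b) = Algebra.trace F K (hermForm m K (q ^ l) a b) := by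
  have : Finite (Module.End F (Fin n → F)) := Module.finite_of_finite F
  have : Finite R := Subtype.finite
  let _ : Field R := hR.fld.toField
  let _ : Fintype R := Fintype.ofFinite R
  let ι : F →+* R := algebraMap F R
  let _ : Algebra F R := ι.toAlgebra
  let _ : Module R (Fin n → F) :=
    { smul := fun a v => a.1 v
      one_smul := fun v => rfl
      mul_smul := fun a b v => rfl
      smul_zero := fun a => map_zero a.1
      smul_add := fun a v w => map_add a.1 v w
      add_smul := fun a b v => rfl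
      zero_smul := fun v => rfl }
  have hsm : ∀ (a : R) (v : Fin n → F), a • v = a.1 v := fun _ _ => rfl
  have htow : IsScalarTower F R (Fin n → F) := ⟨fun c a v => by
    rw [Algebra.smul_def]
    rfl⟩
  have hadj : ∀ a : R, ∃ b : R, ∀ v w : Fin n → F, hermForm n F q (a • v) w = hermForm n F q v (b • w) := by
    intro a
    obtain ⟨b, hb, hab⟩ := hR.adj a.1 a.2
    exact ⟨⟨b, hb⟩, hab⟩
  obtain ⟨l, m, h1, h2, h3, h4, ψ, hψ⟩ := kstruct (K := R) hF hn hadj
  refine ⟨R, inferInstance, inferInstance, inferInstance, inferInstance, htow, Equiv.refl _, l, m, hsm,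
    fun _ _ => rfl, hadj, h1, h2, h3, ?_, h4, ?_, ψ, hψ⟩
  · rw [Nat.card_eq_fintype_card, h3]
  · rw [← ψ.finrank_eq, Module.finrank_fin_fun]

section plane

variable {K : Type} [Field K] [Fintype K] [Algebra F K] [Module K (Fin n → F)] [IsScalarTower F K (Fin n → F)] {Q : ℕ}

theorem plane_halves (hK : Fintype.card K = Q ^ 2) (ψ : (Fin 2 → K) ≃ₗ[K] (Fin n → F))
    (hψ : ∀ a b : Fin 2 → K, hermForm n F q (ψ a) (ψ b) = Algebra.trace F K (hermForm 2 K Q a b)) :
    ∃ W W' : Submodule F (Fin n → F), TS q W ∧ TS q W' ∧ IsCompl W W' ∧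
      ∀ a : K, (∀ v ∈ W, a • v ∈ W) ∧ ∀ v ∈ W', a • v ∈ W' := by
  obtain ⟨μ, hμ0, hμ⟩ := exists_norm_eq_ne hK (c := -1) (by rw [neg_pow_q hK, one_pow]) (neg_ne_zero.2 one_ne_zero)
  obtain ⟨c₀, hc₀⟩ := exists_not_fixed hK
  have hc0 : c₀ ≠ 0 := by
    rintro rfl
    exact hc₀ (zero_pow_q hK)
  obtain ⟨ζ, hζ⟩ : ∃ ζ, ζ = c₀ ^ Q * c₀⁻¹ := ⟨_, rfl⟩
  have hζ1 : ζ ≠ 1 := by
    intro h
    apply hc₀
    rw [h] at hζ
    field_simp at hζ
    exact hζ.symm
  have hζn : ζ * ζ ^ Q = 1 := by
    rw [hζ, mul_pow, pow_q_pow_q hK, inv_pow]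
    have h1 : c₀ ^ Q ≠ 0 := pow_ne_zero _ hc0
    field_simp
  let W : (Fin 2 → K) → Submodule F (Fin n → F) := fun u => (Submodule.span K {ψ u}).restrictScalars F
  have hW : ∀ u v, v ∈ W u ↔ ∃ a : K, a • ψ u = v := by
    intro u v
    rw [Submodule.restrictScalars_mem, Submodule.mem_span_singleton]
  have hTS : ∀ u, hermForm 2 K Q u u = 0 → TS q (W u) := by
    intro u hu v hv w hw
    obtain ⟨a, rfl⟩ := (hW u v).1 hv
    obtain ⟨b, rfl⟩ := (hW u w).1 hw
    rw [← map_smul, ← map_smul, hψ, herm_smul_left, herm_smul_right, hu, mul_zero, mul_zero, map_zero]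
  have hst : ∀ u (a : K), ∀ v ∈ W u, a • v ∈ W u := by
    intro u a v hv
    obtain ⟨b, rfl⟩ := (hW u v).1 hv
    exact (hW u _).2 ⟨a * b, mul_smul a b _⟩
  have hform : ∀ x : K, x * x ^ Q = -1 → hermForm 2 K Q ![1, x] ![1, x] = 0 := by
    intro x hx
    rw [herm_def, Fin.sum_univ_two]
    simp only [Matrix.cons_val_zero, Matrix.cons_val_one, one_pow, mul_one]
    rw [hx, add_neg_cancel]
  have hμζ : μ * ζ * (μ * ζ) ^ Q = -1 := by
    rw [mul_pow]
    calc μ * ζ * (μ ^ Q * ζ ^ Q) = (μ * μ ^ Q) * (ζ * ζ ^ Q) := by ring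
      _ = -1 := by rw [hμ, hζn, mul_one]
  have hne : μ * (ζ - 1) ≠ 0 := mul_ne_zero hμ0 (sub_ne_zero.2 hζ1)
  refine ⟨W ![1, μ], W ![1, μ * ζ], hTS _ (hform _ hμ), hTS _ (hform _ hμζ), ⟨?_, ?_⟩, fun a => ⟨hst _ a, hst _ a⟩⟩
  · rw [Submodule.disjoint_def]
    intro v h1 h2
    obtain ⟨a, ha⟩ := (hW _ v).1 h1
    obtain ⟨b, hb⟩ := (hW _ v).1 h2
    have h3 : a • (![1, μ] : Fin 2 → K) = b • ![1, μ * ζ] := by
      apply ψ.injective
      rw [map_smul, map_smul, ha, hb]
    have h4 := congrFun h3 0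
    have h5 := congrFun h3 1
    simp only [Pi.smul_apply, Matrix.cons_val_zero, Matrix.cons_val_one, smul_eq_mul, mul_one] at h4 h5
    have h6 : a * (μ * (ζ - 1)) = 0 := by
      rw [← h4] at h5
      linear_combination -h5
    rw [← ha, (mul_eq_zero.1 h6).resolve_right hne, zero_smul]
  · rw [codisjoint_iff, eq_top_iff]
    intro v _
    obtain ⟨w, rfl⟩ := ψ.surjective v
    rw [Submodule.mem_sup]
    obtain ⟨b, hb⟩ : ∃ b : K, b * (μ * (ζ - 1)) = w 1 - μ * w 0 := ⟨(w 1 - μ * w 0) / (μ * (ζ - 1)), div_mul_cancel₀ _ hne⟩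
    refine ⟨(w 0 - b) • ψ ![1, μ], (hW _ _).2 ⟨_, rfl⟩, b • ψ ![1, μ * ζ], (hW _ _).2 ⟨_, rfl⟩, ?_⟩
    rw [← map_smul, ← map_smul, ← map_add]
    congr 1
    funext i
    fin_cases i
    · simp
    · simp only [Pi.add_apply, Pi.smul_apply, smul_eq_mul, Fin.mk_one, Matrix.cons_val_one, Fin.isValue,
        Matrix.cons_val_fin_one]
      linear_combination hb

end plane

section field

/-- subalgebras of a finite field are fields -/
theorem isField_of_le {R R' : Subalgebra F (Module.End F (Fin n → F))} (h : IsField R) (hle : R' ≤ R) : IsField R' := by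
  have : Finite (Module.End F (Fin n → F)) := Module.finite_of_finite F
  have : Finite R' := Subtype.finite
  let j : R' → R := fun a => ⟨a.1, hle a.2⟩
  have hj : ∀ a b, j a = j b → a = b := fun a b hab => Subtype.ext (congrArg (fun x : R => x.1) hab)
  refine ⟨⟨0, 1, ?_⟩, fun x y => hj _ _ (h.mul_comm (j x) (j y)), fun {x} hx => ?_⟩
  · intro h0
    obtain ⟨a, b, hab⟩ := h.exists_pair_ne
    apply hab
    have h1 : (0 : Module.End F (Fin n → F)) = 1 := congrArg Subtype.val h0
    apply Subtype.ext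
    rw [← mul_one a.1, ← h1, mul_zero, ← mul_one b.1, ← h1, mul_zero]
  · have hx' : j x ≠ 0 := fun h0 => hx (hj _ _ (by rw [h0]; rfl))
    obtain ⟨y, hy⟩ := h.mul_inv_cancel hx'
    have hinj : Function.Injective fun z : R' => x * z := by
      intro z z' hzz
      have h1 : x.1 * z.1 = x.1 * z'.1 := congrArg Subtype.val hzz
      have h2 : y.1 * x.1 = 1 := by
        have h3 := (h.mul_comm y (j x)).trans hy
        exact congrArg Subtype.val h3
      apply Subtype.ext
      rw [← one_mul z.1, ← h2, mul_assoc, h1, ← mul_assoc, h2, one_mul]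
    obtain ⟨z, hz⟩ := (Finite.injective_iff_surjective.1 hinj) 1
    exact ⟨z, hz⟩

theorem FldAlg.le {R R' : Subalgebra F (Module.End F (Fin n → F))} (h : FldAlg q R) (hle : R' ≤ R)
    (hadj : ∀ a ∈ R', ∃ b ∈ R', Adj q a b) : FldAlg q R' := ⟨isField_of_le h.fld hle, hadj⟩

/-- (S4) of `StrStmt` -/
def SFour (q : ℕ) {ι : Type} (f : ι → (Fin n → F) → (Fin n → F)) : Prop :=
  ∃ (K : Type) (_ : Field K) (_ : Fintype K) (_ : Algebra F K) (_ : Module K (Fin n → F))
      (_ : IsScalarTower F K (Fin n → F)),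
      (∀ a : K, ∃ b : K, ∀ v w : Fin n → F, hermForm n F q (a • v) w = hermForm n F q v (b • w)) ∧
      (∀ (i : ι) (a : K) (v : Fin n → F), f i (a • v) = a • f i v) ∧ 1 < Module.finrank F K ∧
      3 ≤ Module.finrank K (Fin n → F)

theorem fld_split (hF : Fintype.card F = q ^ 2) (hn : 3 ≤ n) {ι : Type} {f : ι → Module.End F (Fin n → F)}
    (hS : ∀ i j, f i * f j = f j * f i) (hG : ∀ i v w, hermForm n F q (f i v) (f i w) = hermForm n F q v w)
    {N : ℕ} (hN : 0 < N) (hGN : ∀ i, f i ^ N = 1) (hR : FldAlg q (Algebra.adjoin F (Set.range f))) :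
    (∃ e : Fin n → F, e ≠ 0 ∧ hermForm n F q e e = 0 ∧ ∀ i, ∃ c : F, f i e = c • e) ∨
    (∃ W W' : Submodule F (Fin n → F), TS q W ∧ TS q W' ∧ IsCompl W W' ∧ ∀ i, Stab (f i) W ∧ Stab (f i) W') ∨
    SFour q (fun i => (f i : (Fin n → F) → (Fin n → F))) ∨
    (Odd n ∧ ∀ i, ScalOn (f i) ⊤ ∨ ∀ A : Submodule F (Fin n → F), Stab (f i) A → A = ⊥ ∨ A = ⊤) := by
  classical
  have hq2 := two_le hF
  have hfin : Finite (Module.End F (Fin n → F)) := Module.finite_of_finite F
  have hS' : ∀ a ∈ Set.range f, ∀ b ∈ Set.range f, a * b = b * a := by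
    rintro _ ⟨i, rfl⟩ _ ⟨j, rfl⟩
    exact hS i j
  have hmem : ∀ i, f i ∈ Algebra.adjoin F (Set.range f) := fun i => Algebra.subset_adjoin ⟨i, rfl⟩
  -- a field algebra of `F`-dimension one consists of scalars
  have hscal : ∀ {R : Subalgebra F (Module.End F (Fin n → F))}, Nat.card R = (q ^ 1) ^ 2 → ∀ a ∈ R,
      ∃ c : F, ∀ v, a v = c • v := by
    intro R hR a ha
    have : Finite R := Subtype.finite
    have hinj : Function.Injective (algebraMap F R) := by
      intro x y hxy
      have : Nontrivial (Fin n → F) := by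
        have : Nonempty (Fin n) := ⟨⟨0, by omega⟩⟩
        infer_instance
      have h2 : algebraMap F (Module.End F (Fin n → F)) x = algebraMap F (Module.End F (Fin n → F)) y :=
        congrArg Subtype.val hxy
      exact (algebraMap F (Module.End F (Fin n → F))).injective h2
    have hbij : Function.Bijective (algebraMap F R) := by
      rw [Nat.bijective_iff_injective_and_card]
      refine ⟨hinj, ?_⟩
      rw [hR, Nat.card_eq_fintype_card, hF, pow_one]
    obtain ⟨c, hc⟩ := hbij.2 ⟨a, ha⟩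
    refine ⟨c, fun v => ?_⟩
    have h3 : algebraMap F (Module.End F (Fin n → F)) c = a := congrArg Subtype.val hc
    rw [← h3, Module.algebraMap_end_apply]
  obtain ⟨K, _, _, _, _, _, φ, l, m, hφ, hφm, hadj, hnm, hodd, hcK, hcR, hl, hm, ψ, hψ⟩ := hR.dims hF (by omega)
  by_cases hl1 : l = 1
  · left
    subst hl1
    obtain ⟨e, he0, he⟩ := exists_sing hF (by omega : 2 ≤ n)
    refine ⟨e, he0, he, fun i => ?_⟩
    obtain ⟨c, hc⟩ := hscal hcR (f i) (hmem i)
    exact ⟨c, hc e⟩
  have hl3 : 3 ≤ l := by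
    obtain ⟨k, hk⟩ := hodd
    omega
  have hcomK : ∀ (i : ι) (a : K) (v : Fin n → F), f i (a • v) = a • f i v := by
    intro i a v
    rw [hφ, hφ]
    exact LinearMap.congr_fun (set_comm_mem hS' (hmem i) (φ a).2) v
  by_cases hm3 : 3 ≤ m
  · right; right; left
    exact ⟨K, inferInstance, inferInstance, inferInstance, inferInstance, inferInstance, hadj, hcomK,
      by omega, by omega⟩
  have hm0 : m ≠ 0 := by
    rintro rfl
    omega
  by_cases hm2 : m = 2
  · right; left
    subst hm2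
    obtain ⟨W, W', h1, h2, h3, h4⟩ := plane_halves hcK ψ hψ
    refine ⟨W, W', h1, h2, h3, fun i => ?_⟩
    obtain ⟨a, ha⟩ := φ.surjective ⟨f i, hmem i⟩
    have h5 : ∀ v, a • v = f i v := by
      intro v
      rw [hφ, ha]
    constructor
    · intro v hv
      rw [← h5]
      exact (h4 a).1 v hv
    · intro v hv
      rw [← h5]
      exact (h4 a).2 v hv
  have hm1 : m = 1 := by omega
  subst hm1
  rw [one_mul] at hnm
  subst hnm
  right; right
  by_cases hall : ∀ i, Algebra.adjoin F {f i} = Algebra.adjoin F (Set.range f) ∨ ScalOn (f i) ⊤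
  · right
    refine ⟨hodd, fun i => ?_⟩
    rcases hall i with h | h
    · right
      intro A hA
      by_cases h0 : A = ⊥
      · exact Or.inl h0
      · right
        obtain ⟨v, hv, hv0⟩ := A.ne_bot_iff.1 h0
        rw [eq_top_iff]
        intro w _
        obtain ⟨c, hc⟩ := (finrank_eq_one_iff_of_nonzero' v hv0).1 hm w
        have h1 : ∀ a ∈ Algebra.adjoin F {f i}, ∀ v ∈ A, a v ∈ A := by
          intro a ha
          induction ha using Algebra.adjoin_induction with
          | mem x hx =>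
            rw [Set.mem_singleton_iff] at hx
            rw [hx]
            exact hA
          | algebraMap r =>
            intro v hv
            rw [Module.algebraMap_end_apply]
            exact A.smul_mem r hv
          | add x y _ _ hx hy => intro v hv; exact A.add_mem (hx v hv) (hy v hv)
          | mul x y _ _ hx hy => intro v hv; exact hx _ (hy v hv)
        rw [← hc, hφ]
        exact h1 _ (by rw [h]; exact (φ c).2) v hv
    · exact Or.inl h
  · left
    push Not at hall
    obtain ⟨i, hi, hns⟩ := hall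
    have hle : Algebra.adjoin F {f i} ≤ Algebra.adjoin F (Set.range f) :=
      Algebra.adjoin_mono (by rintro _ rfl; exact ⟨i, rfl⟩)
    have hRi : FldAlg q (Algebra.adjoin F {f i}) := by
      refine hR.le hle fun a ha => set_exists_adj hF ?_ hN ?_ ha
      · rintro _ rfl
        exact hG i
      · rintro _ rfl
        exact hGN i
    obtain ⟨K', _, _, _, _, _, φ', l', m', hφ', -, hadj', hnm', hodd', hcK', hcR', hl', hm', -⟩ := hRi.dims hF (by omega)
    refine ⟨K', inferInstance, inferInstance, inferInstance, inferInstance, inferInstance, hadj', ?_, ?_, ?_⟩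
    · intro j a v
      change f j (a • v) = a • f j v
      rw [hφ', hφ']
      exact LinearMap.congr_fun (set_comm_mem hS' (hmem j) (hle (φ' a).2)) v
    · rw [hl']
      have h1 : l' ≠ 1 := by
        rintro rfl
        apply hns
        obtain ⟨c, hc⟩ := hscal hcR' (f i) (Algebra.subset_adjoin rfl)
        exact ⟨c, fun v _ => hc v⟩
      obtain ⟨k, hk⟩ := hodd'
      omega
    · rw [hm']
      have h1 : m' ≠ 1 := by
        rintro rfl
        apply hi
        rw [one_mul] at hnm'
        have : Finite (Algebra.adjoin F (Set.range f)) := Subtype.finite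
        have h2 : Nat.card (Algebra.adjoin F (Set.range f)) ≤ Nat.card (Algebra.adjoin F {f i}) := by
          rw [hcR, hcR', hnm']
        exact SetLike.coe_injective (Set.eq_of_subset_of_ncard_le hle h2 (Set.toFinite _))
      have h2 : m' ≠ 2 := by
        rintro rfl
        obtain ⟨k, hk⟩ := hodd
        omega
      have h3 : m' ≠ 0 := by
        rintro rfl
        omega
      omega

end field

end Cfsg.Agent.H398.RC
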