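import Mathlib

/-!
# S3510, row E, box E7: the numerical lemma with one more unit (helper398, after helper406)
-/

set_option autoImplicit false

namespace Cfsg.Agent.H398.RC

theorem num_one {ι : Type*} [Fintype ι] {n t : ℕ} (hn : 3 ≤ n) (_ho : Odd n) (r : ι → ℕ) (hp : ∀ i, (r i).Prime)
    (hinj : Function.Injective r) (hr : ∀ i, n ≤ r i) (hk : 2 ≤ Fintype.card ι) (ht : ∏ i, r i ≤ t) :
    ∑ i, (1 + Real.sqrt ((t * (if r i = n then n else 1) : ℕ) : ℝ)) + 1 < (t : ℝ) := by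
  classical
  have hT2 : Real.sqrt t * Real.sqrt t = t := Real.mul_self_sqrt (Nat.cast_nonneg t)
  have hT0 : 0 ≤ Real.sqrt (t : ℝ) := Real.sqrt_nonneg _
  have h5 : ∀ i, r i ≠ n → 5 ≤ r i := by
    intro i hi
    have h1 := hr i
    have h2 : r i ≠ 4 := by
      intro h4
      have := hp i
      rw [h4] at this
      exact absurd this (by norm_num)
    omega
  by_cases hS : ∃ i₀, r i₀ = n
  · obtain ⟨i₀, hi₀⟩ := hS
    have hne : ∀ i ∈ Finset.univ.erase i₀, r i ≠ n := by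
      intro i hi h
      exact (Finset.ne_of_mem_erase hi) (hinj (h.trans hi₀.symm))
    obtain ⟨j, hj, hj1⟩ : ∃ j, (Finset.univ.erase i₀).card = j ∧ 1 ≤ j := by
      refine ⟨_, rfl, ?_⟩
      rw [Finset.card_erase_of_mem (Finset.mem_univ _), Finset.card_univ]
      omega
    have hprod : n * 5 ^ j ≤ t := by
      refine le_trans ?_ ht
      rw [← Finset.mul_prod_erase Finset.univ r (Finset.mem_univ i₀), hi₀, ← hj]
      exact Nat.mul_le_mul_left _ (Finset.pow_card_le_prod _ _ _ fun i hi => h5 i (hne i hi))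
    have hs0 : 0 ≤ Real.sqrt (n : ℝ) := Real.sqrt_nonneg _
    have hs2 : Real.sqrt n * Real.sqrt n = n := Real.mul_self_sqrt (Nat.cast_nonneg n)
    have hs : (1.7 : ℝ) ≤ Real.sqrt n := by
      apply Real.le_sqrt_of_sq_le
      have : (3 : ℝ) ≤ n := by exact_mod_cast hn
      norm_num
      linarith
    have hT : Real.sqrt n * (2.2 : ℝ) ^ j ≤ Real.sqrt t := by
      apply Real.le_sqrt_of_sq_le
      have e1 : (Real.sqrt n * (2.2 : ℝ) ^ j) ^ 2 = n * (4.84 : ℝ) ^ j := by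
        rw [mul_pow, pow_two (Real.sqrt _), hs2, ← pow_mul, mul_comm j 2, pow_mul]
        norm_num
      rw [e1]
      have e2 : (4.84 : ℝ) ^ j ≤ 5 ^ j := pow_le_pow_left₀ (by norm_num) (by norm_num) j
      have e3 : ((n * 5 ^ j : ℕ) : ℝ) ≤ t := by exact_mod_cast hprod
      push_cast at e3
      exact (mul_le_mul_of_nonneg_left e2 (Nat.cast_nonneg n)).trans e3
    have hB : 1 + (j : ℝ) * 1.2 ≤ (2.2 : ℝ) ^ j := by
      have := one_add_mul_le_pow (a := (1.2 : ℝ)) (by norm_num) j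
      norm_num at this ⊢
      exact this
    have hjR : (1 : ℝ) ≤ j := by exact_mod_cast hj1
    set s := Real.sqrt (n : ℝ) with hsd
    set T := Real.sqrt (t : ℝ) with hTd
    have hT1 : s * (1 + (j : ℝ) * 1.2) ≤ T := (mul_le_mul_of_nonneg_left hB hs0).trans hT
    have hT3 : s + 2.04 * j ≤ T := by nlinarith
    have hT4 : 3.74 ≤ T := by linarith
    have hsum : ∑ i, (1 + Real.sqrt ((t * (if r i = n then n else 1) : ℕ) : ℝ)) = (1 + T * s) + j * (1 + T) := by
      rw [← Finset.add_sum_erase Finset.univ _ (Finset.mem_univ i₀), if_pos hi₀]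
      congr 1
      · rw [Nat.cast_mul, Real.sqrt_mul (Nat.cast_nonneg t)]
      · rw [Finset.sum_congr rfl (g := fun _ => 1 + T) fun i hi => by rw [if_neg (hne i hi), mul_one], Finset.sum_const, hj,
          nsmul_eq_mul]
    rw [hsum, ← hT2]
    nlinarith
  · push Not at hS
    obtain ⟨k, hkd⟩ : ∃ k, Fintype.card ι = k := ⟨_, rfl⟩
    rw [hkd] at hk
    have hprod : 5 ^ k ≤ t := by
      refine le_trans ?_ ht
      rw [← hkd, ← Finset.card_univ]
      exact Finset.pow_card_le_prod _ _ _ fun i _ => h5 i (hS i)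
    have hT : (2.2 : ℝ) ^ k ≤ Real.sqrt t := by
      apply Real.le_sqrt_of_sq_le
      have e1 : ((2.2 : ℝ) ^ k) ^ 2 = (4.84 : ℝ) ^ k := by
        rw [← pow_mul, mul_comm k 2, pow_mul]
        norm_num
      rw [e1]
      have e2 : (4.84 : ℝ) ^ k ≤ 5 ^ k := pow_le_pow_left₀ (by norm_num) (by norm_num) k
      have e3 : ((5 ^ k : ℕ) : ℝ) ≤ t := by exact_mod_cast hprod
      push_cast at e3
      exact e2.trans e3
    have hB : 1 + (k : ℝ) * 1.2 ≤ (2.2 : ℝ) ^ k := by
      have := one_add_mul_le_pow (a := (1.2 : ℝ)) (by norm_num) k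
      norm_num at this ⊢
      exact this
    have hkR : (2 : ℝ) ≤ k := by exact_mod_cast hk
    set T := Real.sqrt (t : ℝ) with hTd
    have hT1 : 1 + (k : ℝ) * 1.2 ≤ T := hB.trans hT
    have hsum : ∑ i, (1 + Real.sqrt ((t * (if r i = n then n else 1) : ℕ) : ℝ)) = k * (1 + T) := by
      rw [Finset.sum_congr rfl (g := fun _ => 1 + T) fun i _ => by rw [if_neg (hS i), mul_one], Finset.sum_const,
        Finset.card_univ, hkd, nsmul_eq_mul]
    rw [hsum, ← hT2]
    nlinarith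

/-- the form needed by `H368.RC.not_cov_env` -/
theorem num_cb {ι : Type*} [Fintype ι] {n d t : ℕ} (hn : 3 ≤ n) (ho : Odd n) (htd : d + 1 = t) (r : ι → ℕ)
    (hp : ∀ i, (r i).Prime) (hinj : Function.Injective r) (hr : ∀ i, n ≤ r i) (hk : 2 ≤ Fintype.card ι)
    (ht : ∏ i, r i ≤ t) :
    ∑ i, (1 / ((d : ℝ) + 1) + √((t * (if r i = n then n else 1) : ℕ) : ℝ) / d) < 1 := by
  have h1 := num_one hn ho r hp hinj hr hk ht
  have h2 : 0 ≤ ∑ i, (1 + Real.sqrt ((t * (if r i = n then n else 1) : ℕ) : ℝ)) :=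
    Finset.sum_nonneg fun i _ => add_nonneg zero_le_one (Real.sqrt_nonneg _)
  have h3 : ((d : ℝ) + 1) = t := by exact_mod_cast htd
  have hd : (0 : ℝ) < d := by linarith
  have h4 : ∑ i, (1 / ((d : ℝ) + 1) + √((t * (if r i = n then n else 1) : ℕ) : ℝ) / d) ≤
      ∑ i, (1 + Real.sqrt ((t * (if r i = n then n else 1) : ℕ) : ℝ)) / d := by
    refine Finset.sum_le_sum fun i _ => ?_
    rw [add_div]
    have h5 : 1 / ((d : ℝ) + 1) ≤ 1 / d := one_div_le_one_div_of_le hd (by linarith)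
    linarith
  refine lt_of_le_of_lt h4 ?_
  rw [← Finset.sum_div, div_lt_one hd]
  linarith

end Cfsg.Agent.H398.RC
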